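import Cfsg.Agent.H49.ThFiveGlob

/-!
# S5923 (M7): local facts on the prime 5 in the Thompson group (helper513)
-/

set_option autoImplicit false
set_option linter.unusedSectionVars false

namespace Cfsg.Agent.H513.L5.ThA

open Subgroup Cfsg.Agent.H49.ThFive

universe u

variable {K : Type u} [Group K] [Finite K] {x y z a : K}

/-- the Sylow 5-subgroup of the centralizer of an element of order 5 is normal -/
theorem le_of_cent (D : Dat x y z a) {c : K} (hc : orderOf c = 5) {P Q : Subgroup K} (hP : Nat.card P = 125)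
    (hPc : ∀ u ∈ P, u * c = c * u) (hQ : IsPGroup 5 Q) (hQc : ∀ u ∈ Q, u * c = c * u) : Q ≤ P := by
  have := f5
  obtain ⟨t, ht⟩ := D.all hc
  have key : ∀ R : Subgroup K, IsPGroup 5 R → (∀ u ∈ R, u * c = c * u) →
      R.map (MulAut.conj t).toMonoidHom ≤ PP x y z := by
    intro R hR hRc
    have h1 : R.map (MulAut.conj t).toMonoidHom ≤ Subgroup.normalizer (PP x y z : Set K) := by
      have h2 : ∀ w ∈ R.map (MulAut.conj t).toMonoidHom, w * z = z * w := by
        rintro _ ⟨w, hw, rfl⟩
        show t * w * t⁻¹ * z = z * (t * w * t⁻¹)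
        rw [← ht]
        have := hRc w hw
        calc t * w * t⁻¹ * (t * c * t⁻¹) = t * (w * c) * t⁻¹ := by group
          _ = t * (c * w) * t⁻¹ := by rw [this]
          _ = _ := by group
      intro w hw
      rw [Subgroup.mem_normalizer_iff]
      intro u
      constructor
      · intro hu
        exact D.norm (h2 w hw) hu
      · intro hu
        have := D.norm (h2 w⁻¹ (inv_mem hw)) hu
        have e : w⁻¹ * (w * u * w⁻¹) * w⁻¹⁻¹ = u := by group
        rwa [e] at this
    have h2 : IsPGroup 5 ↥(R.map (MulAut.conj t).toMonoidHom ⊔ PP x y z) :=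
      IsPGroup.to_sup_of_normal_right' (hR.map _) D.isP h1
    have h3 := D.le_of_five h2
    have h4 : PP x y z = R.map (MulAut.conj t).toMonoidHom ⊔ PP x y z := by
      apply Subgroup.eq_of_le_of_card_ge le_sup_right
      rw [D.card_P]
      exact h3
    rw [h4]
    exact le_sup_left
  have h1 := key Q hQ hQc
  have h2 := key P (IsPGroup.of_card (n := 3) (by rw [hP]; norm_num)) hPc
  have h3 : P.map (MulAut.conj t).toMonoidHom = PP x y z := by
    apply Subgroup.eq_of_le_of_card_ge h2
    rw [D.card_P, Subgroup.card_map_of_injective (MulAut.conj t).injective, hP]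
  rw [← h3] at h1
  exact (Subgroup.map_le_map_iff_of_injective (MulAut.conj t).injective).1 h1

theorem card_cent (D : Dat x y z a) {c : K} (hc : orderOf c = 5) : Nat.card ↥(centralizer ({c} : Set K)) = 3000 := by
  obtain ⟨g, hg⟩ := D.all hc
  rw [← D.card_C, ← hg]
  have h1 : centralizer ({g * c * g⁻¹} : Set K) = (centralizer ({c} : Set K)).map (MulAut.conj g).toMonoidHom := by
    ext w
    rw [mem_centralizer_singleton_iff, mem_map]
    constructor
    · intro hw
      refine ⟨g⁻¹ * w * g, ?_, by simp [mul_assoc]⟩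
      rw [mem_centralizer_singleton_iff]
      calc g⁻¹ * w * g * c = g⁻¹ * (w * (g * c * g⁻¹)) * g := by group
        _ = g⁻¹ * (g * c * g⁻¹ * w) * g := by rw [hw]
        _ = c * (g⁻¹ * w * g) := by group
    · rintro ⟨v, hv, rfl⟩
      rw [mem_centralizer_singleton_iff] at hv
      change g * v * g⁻¹ * (g * c * g⁻¹) = g * c * g⁻¹ * (g * v * g⁻¹)
      calc g * v * g⁻¹ * (g * c * g⁻¹) = g * (v * c) * g⁻¹ := by group
        _ = g * (c * v) * g⁻¹ := by rw [hv]
        _ = _ := by group
  rw [h1, card_map_of_injective (MulAut.conj g).injective]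

/-- elements of the centralizer of an element of order 5 normalize the Sylow 5-subgroup -/
theorem norm_of_cent (D : Dat x y z a) {c : K} (hc : orderOf c = 5) {P : Subgroup K} (hP : Nat.card P = 125)
    (hPc : ∀ u ∈ P, u * c = c * u) {g : K} (hg : g * c = c * g) {u : K} (hu : u ∈ P) : g * u * g⁻¹ ∈ P := by
  have h5 : IsPGroup 5 P := IsPGroup.of_card (n := 3) (by rw [hP]; norm_num)
  have h1 : P.map (MulAut.conj g).toMonoidHom ≤ P := by
    refine le_of_cent D hc hP hPc (h5.map _) ?_
    rintro _ ⟨w, hw, rfl⟩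
    show g * w * g⁻¹ * c = c * (g * w * g⁻¹)
    have h2 : g⁻¹ * c = c * g⁻¹ := by
      rw [inv_mul_eq_iff_eq_mul, ← mul_assoc, hg, mul_assoc, mul_inv_cancel, mul_one]
    rw [mul_assoc, h2, ← mul_assoc, mul_assoc g w c, hPc w hw, ← mul_assoc, hg]
    group
  exact h1 ⟨u, hu, rfl⟩

end Cfsg.Agent.H513.L5.ThA
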