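import Cfsg.Agent.H513.L5.ThA
import Cfsg.Agent.H513.L5.ThB

/-!
# S5923 (M7): the local argument (helper513)
-/

set_option autoImplicit false
set_option linter.unusedSectionVars false

namespace Cfsg.Agent.H513.L5.ThC

open Subgroup Cfsg.Agent.H49.ThFive Cfsg.Agent.H865.L5 Cfsg.Agent.H513.L5.ThA Cfsg.Agent.H513.L5.ThB

universe u

/-- `US` as a subgroup -/
def USs : Subgroup SL35 where
  carrier := {g | ∃ a b c, g = us a b c}
  one_mem' := ⟨0, 0, 0, us_one.symm⟩
  mul_mem' := by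
    rintro _ _ ⟨a, b, c, rfl⟩ ⟨a', b', c', rfl⟩
    exact ⟨_, _, _, us_mul _ _ _ _ _ _⟩
  inv_mem' := by
    rintro _ ⟨a, b, c, rfl⟩
    refine ⟨-a, a * c - b, -c, ?_⟩
    rw [inv_eq_iff_mul_eq_one, us_mul, ← us_one]
    congr 1 <;> ring

theorem card_USs : Nat.card USs = 125 := by
  have e : (ZMod 5 × ZMod 5 × ZMod 5) ≃ USs :=
    Equiv.ofBijective (fun p => ⟨us p.1 p.2.1 p.2.2, p.1, p.2.1, p.2.2, rfl⟩) ⟨by
      rintro ⟨a, b, c⟩ ⟨a', b', c'⟩ h
      obtain ⟨h1, h2, h3⟩ := us_inj (congrArg Subtype.val h)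
      simp only at h1 h2 h3
      rw [h1, h2, h3], by
      rintro ⟨_, a, b, c, rfl⟩
      exact ⟨(a, b, c), rfl⟩⟩
  rw [← Nat.card_congr e]
  simp

theorem us_pow (a b : ZMod 5) (n : ℕ) : (us a b 0) ^ n = us (n * a) (n * b) 0 := by
  induction n with
  | zero => simp [us_one]
  | succ n ih =>
    rw [pow_succ, ih, us_mul]
    congr 1 <;> push_cast <;> ring

theorem us_split (s t : ZMod 5) : us s t 0 = (us 1 0 0) ^ s.val * (us 0 1 0) ^ t.val := by
  rw [us_pow, us_pow, us_mul]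
  simp

theorem us_order : orderOf (us 0 1 0) = 5 := by
  apply orderOf_eq_prime
  · rw [us_pow, ← us_one]
    congr 1
  · rw [Ne, ← us_one]
    intro h
    have := (us_inj h).2.1
    exact absurd this (by decide)

section

variable {K : Type u} [Group K] {f : SL35 →* K} (hf : Function.Injective f)

include hf

/-- the normalizer of `VP` -/
theorem NP (hC : ∀ g : K, (∀ s t, g * f (us s t 0) = f (us s t 0) * g) → ∃ x, g = f x) {n : K}
    (hn : ∀ s t, ∃ s' t', n * f (us s t 0) * n⁻¹ = f (us s' t' 0)) : ∃ x, n = f x := by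
  obtain ⟨a, b, h1⟩ := hn 1 0
  obtain ⟨c, d, h2⟩ := hn 0 1
  have h3 : ∀ s t, n * f (us s t 0) * n⁻¹ = f (us (s * a + t * c) (s * b + t * d) 0) := by
    intro s t
    have e : n * f (us s t 0) * n⁻¹ = (n * f (us 1 0 0) * n⁻¹) ^ s.val * (n * f (us 0 1 0) * n⁻¹) ^ t.val := by
      rw [conj_pow, conj_pow, us_split s t, map_mul, map_pow, map_pow]
      group
    rw [e, h1, h2, ← map_pow, ← map_pow, ← map_mul, us_pow, us_pow, us_mul]
    congr 2
    · simp
    · simp
      ring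
  have h0 : ∀ s t, us (s * a + t * c) (s * b + t * d) 0 = us 0 0 0 → s = 0 ∧ t = 0 := by
    intro s t e
    have h4 := h3 s t
    rw [e, us_one, map_one, mul_inv_eq_one] at h4
    have h5 : f (us s t 0) = 1 := by
      calc f (us s t 0) = n⁻¹ * (n * f (us s t 0)) := by group
        _ = n⁻¹ * n := by rw [h4]
        _ = 1 := by group
    have h6 : us s t 0 = us 0 0 0 := by
      rw [us_one]
      exact hf (by rw [h5, map_one])
    exact ⟨(us_inj h6).1, (us_inj h6).2.1⟩
  have hD : a * d - b * c ≠ 0 := by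
    intro hD
    have k1 := h0 d (-b) (by
      congr 1
      · linear_combination hD
      · ring)
    have k2 := h0 c (-a) (by
      congr 1
      · ring
      · linear_combination (-1) * hD)
    have hb : b = 0 := neg_eq_zero.1 k1.2
    have ha : a = 0 := neg_eq_zero.1 k2.2
    have k3 := h0 1 0 (by rw [ha, hb]; congr 1 <;> ring)
    exact absurd k3.1 (by decide)
  have h4 : ∃ x, (f (pm a b c d hD))⁻¹ * n = f x := by
    apply hC
    intro s t
    have k1 : n * f (us s t 0) = f (us (s * a + t * c) (s * b + t * d) 0) * n := by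
      rw [← h3 s t]
      group
    have k2 : f (pm a b c d hD) * f (us s t 0) = f (us (s * a + t * c) (s * b + t * d) 0) * f (pm a b c d hD) := by
      rw [← map_mul, ← map_mul, pm_mul]
    have k3 : (f (pm a b c d hD))⁻¹ * f (us (s * a + t * c) (s * b + t * d) 0) =
        f (us s t 0) * (f (pm a b c d hD))⁻¹ := by
      rw [inv_mul_eq_iff_eq_mul, ← mul_assoc, k2, mul_assoc, mul_inv_cancel, mul_one]
    rw [mul_assoc, k1, ← mul_assoc, k3, mul_assoc]
  obtain ⟨x, hx⟩ := h4
  refine ⟨pm a b c d hD * x, ?_⟩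
  rw [map_mul, ← hx]
  group

end

/-- a conjugation which maps elements of a family to elements of a family of the same size is onto -/
theorem onto {G : Type*} [Group G] {L : Type*} [Finite L] {x y : L → G} (hx : Function.Injective x) {g : G}
    (h : ∀ s, ∃ t, g * x s * g⁻¹ = y t) (t : L) : ∃ s, g * x s * g⁻¹ = y t := by
  choose F hF using h
  have hinj : Function.Injective F := by
    intro s s' e
    apply hx
    have : g * x s * g⁻¹ = g * x s' * g⁻¹ := by rw [hF s, hF s', e]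
    exact mul_left_cancel (mul_right_cancel this)
  obtain ⟨s, hs⟩ := (Finite.injective_iff_surjective.1 hinj) t
  exact ⟨s, by rw [hF s, hs]⟩

section

variable {K : Type u} [Group K] [Finite K] {x y z a : K} (D : Dat x y z a) {f : SL35 →* K}
  (hf : Function.Injective f)

theorem orderOf_c (hf : Function.Injective f) : orderOf (f (us 0 1 0)) = 5 := by
  rw [orderOf_injective f hf, us_order]

theorem card_P (hf : Function.Injective f) : Nat.card (USs.map f) = 125 := by
  rw [Subgroup.card_map_of_injective hf, card_USs]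

theorem P_comm : ∀ u ∈ USs.map f, u * f (us 0 1 0) = f (us 0 1 0) * u := by
  rintro _ ⟨_, ⟨a, b, c, rfl⟩, rfl⟩
  rw [← map_mul, ← map_mul, us_mul, us_mul]
  congr 2 <;> ring

include D hf

/-- the centralizer of `us 0 1 0` normalizes `US` -/
theorem norm_US {g : K} (hg : g * f (us 0 1 0) = f (us 0 1 0) * g) (a b c : ZMod 5) :
    ∃ a' b' c', g * f (us a b c) * g⁻¹ = f (us a' b' c') := by
  obtain ⟨_, ⟨a', b', c', rfl⟩, h⟩ := norm_of_cent D (orderOf_c hf) (card_P hf) P_comm hg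
    (u := f (us a b c)) ⟨_, ⟨a, b, c, rfl⟩, rfl⟩
  exact ⟨a', b', c', h.symm⟩

theorem f_pow (hf : Function.Injective f) {g : K} (hg : g ∈ USs.map f) : g ^ 125 = 1 := by
  rw [← card_P hf]
  have := pow_card_eq_one' (x := (⟨g, hg⟩ : ↥(USs.map f)))
  exact congrArg Subtype.val this

/-- no elements of order prime to 5 in the centralizer of `VP` -/
theorem no_r (hS : ∀ g : K, (∀ a b c, g * f (us a b c) = f (us a b c) * g) → g ∈ USs.map f)
    (hV : ∀ g h : K, (∀ s t, g * f (us s t 0) = f (us s t 0) * g) → (∀ s t, h * f (us s t 0) = f (us s t 0) * h) →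
      g * h = h * g) {r : ℕ} (hr : r.Prime) (h5 : r ≠ 5) (harith : ∀ k, r ^ k ∣ 3000 → r ^ k % 5 = 1 → r ^ k = 1)
    {g : K} (hg : ∀ s t, g * f (us s t 0) = f (us s t 0) * g) (hgr : g ^ r = 1) : g = 1 := by
  have : Fact (Nat.Prime 5) := ⟨by norm_num⟩
  have : Fact r.Prime := ⟨hr⟩
  let Q : Subgroup K :=
    { carrier := {g | (∀ s t, g * f (us s t 0) = f (us s t 0) * g) ∧ g ^ r = 1}
      one_mem' := ⟨fun s t => by rw [one_mul, mul_one], one_pow r⟩
      mul_mem' := by
        rintro u v ⟨hu, hu'⟩ ⟨hv, hv'⟩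
        refine ⟨fun s t => ?_, ?_⟩
        · rw [mul_assoc, hv, ← mul_assoc, hu, mul_assoc]
        · rw [(show Commute u v from hV u v hu hv).mul_pow, hu', hv', one_mul]
      inv_mem' := by
        rintro u ⟨hu, hu'⟩
        refine ⟨fun s t => ?_, by rw [inv_pow, hu', inv_one]⟩
        rw [inv_mul_eq_iff_eq_mul, ← mul_assoc, hu, mul_assoc, mul_inv_cancel, mul_one] }
  have hnorm : ∀ p ∈ USs.map f, ∀ u ∈ Q, p * u * p⁻¹ ∈ Q := by
    rintro _ ⟨_, ⟨a, b, c, rfl⟩, rfl⟩ u ⟨hu, hu'⟩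
    refine ⟨fun s t => ?_, by rw [conj_pow, hu', mul_one, mul_inv_cancel]⟩
    have e1 : f (us a b c) * f (us s (t + s * c) 0) = f (us s t 0) * f (us a b c) := by
      rw [← map_mul, ← map_mul, us_mul, us_mul]
      congr 2 <;> ring
    have e2 : (f (us a b c))⁻¹ * f (us s t 0) = f (us s (t + s * c) 0) * (f (us a b c))⁻¹ := by
      rw [inv_mul_eq_iff_eq_mul, ← mul_assoc, e1, mul_assoc, mul_inv_cancel, mul_one]
    rw [mul_assoc, e2, ← mul_assoc, mul_assoc _ u, hu, ← mul_assoc, e1]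
    group
  let act : MulAction ↥(USs.map f) ↥Q :=
    { smul := fun p u => ⟨p.1 * u.1 * p.1⁻¹, hnorm p.1 p.2 u.1 u.2⟩
      one_smul := fun u => Subtype.ext (by show 1 * u.1 * 1⁻¹ = u.1; group)
      mul_smul := fun p p' u => Subtype.ext (by
        show (p.1 * p'.1) * u.1 * (p.1 * p'.1)⁻¹ = p.1 * (p'.1 * u.1 * p'.1⁻¹) * p.1⁻¹
        group) }
  have hP5 : IsPGroup 5 ↥(USs.map f) := IsPGroup.of_card (n := 3) (by rw [card_P hf]; norm_num)
  have h1 := hP5.card_modEq_card_fixedPoints ↥Q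
  have hfix : Nat.card (MulAction.fixedPoints ↥(USs.map f) ↥Q) = 1 := by
    rw [Nat.card_eq_one_iff_unique]
    refine ⟨⟨?_⟩, ⟨⟨1, fun p => Subtype.ext (by show p.1 * 1 * p.1⁻¹ = 1; group)⟩⟩⟩
    have key : ∀ u : MulAction.fixedPoints ↥(USs.map f) ↥Q, (u : ↥Q) = 1 := by
      rintro ⟨⟨u, hu, hur⟩, hfixu⟩
      have h2 : u ∈ USs.map f := by
        apply hS
        intro a b c
        have h3 := congrArg Subtype.val (hfixu ⟨f (us a b c), ⟨_, ⟨a, b, c, rfl⟩, rfl⟩⟩)
        have h4 : f (us a b c) * u * (f (us a b c))⁻¹ = u := h3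
        rw [mul_inv_eq_iff_eq_mul] at h4
        exact h4.symm
      have h3 := f_pow D hf hf h2
      have h4 : orderOf u ∣ Nat.gcd r 125 := Nat.dvd_gcd (orderOf_dvd_of_pow_eq_one hur) (orderOf_dvd_of_pow_eq_one h3)
      have h5' : Nat.Coprime r 125 := by
        rw [show (125 : ℕ) = 5 ^ 3 by norm_num]
        exact Nat.Coprime.pow_right _ ((Nat.coprime_primes hr (by norm_num)).2 h5)
      rw [h5'] at h4
      exact Subtype.ext (orderOf_eq_one_iff.1 (Nat.dvd_one.1 h4))
    intro u v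
    exact Subtype.ext ((key u).trans (key v).symm)
  rw [hfix] at h1
  have hQr : IsPGroup r ↥Q := fun u => ⟨1, Subtype.ext (by rw [pow_one]; exact u.2.2)⟩
  obtain ⟨k, hk⟩ := IsPGroup.iff_card.1 hQr
  have hle : Q ≤ centralizer ({f (us 0 1 0)} : Set K) := by
    rintro u ⟨hu, -⟩
    exact mem_centralizer_singleton_iff.2 (hu 0 1)
  have hdvd := card_dvd_of_le hle
  rw [card_cent D (orderOf_c hf), hk] at hdvd
  have h6 := harith k hdvd (by rw [← hk]; exact h1)
  rw [← hk, Subgroup.card_eq_one] at h6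
  have : g ∈ Q := ⟨hg, hgr⟩
  rw [h6] at this
  exact this

omit D hf in
theorem arith2 (k : ℕ) (hk : 2 ^ k ∣ 3000) (hm : 2 ^ k % 5 = 1) : 2 ^ k = 1 := by
  have : k ≤ 3 := by
    by_contra h
    have : 2 ^ 4 ∣ 3000 := (pow_dvd_pow 2 (by omega)).trans hk
    norm_num at this
  interval_cases k
  · rfl
  · norm_num at hm
  · norm_num at hm
  · norm_num at hm

omit D hf in
theorem arith3 (k : ℕ) (hk : 3 ^ k ∣ 3000) (hm : 3 ^ k % 5 = 1) : 3 ^ k = 1 := by
  have : k ≤ 1 := by
    by_contra h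
    have : 3 ^ 2 ∣ 3000 := (pow_dvd_pow 3 (by omega)).trans hk
    norm_num at this
  interval_cases k
  · rfl
  · norm_num at hm

/-- the centralizer of `VP` -/
theorem cent_VP (hS : ∀ g : K, (∀ a b c, g * f (us a b c) = f (us a b c) * g) → g ∈ USs.map f)
    (hV : ∀ g h : K, (∀ s t, g * f (us s t 0) = f (us s t 0) * g) → (∀ s t, h * f (us s t 0) = f (us s t 0) * h) →
      g * h = h * g) {g : K} (hg : ∀ s t, g * f (us s t 0) = f (us s t 0) * g) : ∃ s t, g = f (us s t 0) := by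
  have : Fact (Nat.Prime 5) := ⟨by norm_num⟩
  let C : Subgroup K :=
    { carrier := {g | ∀ s t, g * f (us s t 0) = f (us s t 0) * g}
      one_mem' := fun s t => by rw [one_mul, mul_one]
      mul_mem' := by
        rintro u v hu hv
        intro s t
        rw [mul_assoc, hv, ← mul_assoc, hu, mul_assoc]
      inv_mem' := by
        rintro u hu
        intro s t
        rw [inv_mul_eq_iff_eq_mul, ← mul_assoc, hu, mul_assoc, mul_inv_cancel, mul_one] }
  have hle : C ≤ centralizer ({f (us 0 1 0)} : Set K) := by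
    intro u hu
    exact mem_centralizer_singleton_iff.2 (hu 0 1)
  have hdvd := card_dvd_of_le hle
  rw [card_cent D (orderOf_c hf)] at hdvd
  have hr : ∀ r : ℕ, r.Prime → r ≠ 5 → (∀ k, r ^ k ∣ 3000 → r ^ k % 5 = 1 → r ^ k = 1) → Nat.Coprime (Nat.card C) r := by
    intro r hr h5 ha
    have : Fact r.Prime := ⟨hr⟩
    rw [Nat.coprime_comm, (Nat.Prime.coprime_iff_not_dvd hr)]
    intro hd
    obtain ⟨u, hu⟩ := exists_prime_orderOf_dvd_card' (G := C) r hd
    have h1 : (u : K) ^ r = 1 := by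
      have := pow_orderOf_eq_one u
      rw [hu] at this
      exact congrArg Subtype.val this
    have h2 := no_r D hf hS hV hr h5 ha u.2 h1
    have h3 : u = 1 := Subtype.ext h2
    rw [h3, orderOf_one] at hu
    exact hr.one_lt.ne hu
  have h2 := hr 2 (by norm_num) (by norm_num) arith2
  have h3 := hr 3 (by norm_num) (by norm_num) arith3
  have h4 : Nat.card C ∣ 5 ^ 3 := by
    have e : (3000 : ℕ) = 2 ^ 3 * (3 * 5 ^ 3) := by norm_num
    rw [e] at hdvd
    exact h3.dvd_of_dvd_mul_left ((Nat.Coprime.pow_right 3 h2).dvd_of_dvd_mul_left hdvd)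
  obtain ⟨k, -, hk⟩ := (Nat.dvd_prime_pow (by norm_num : Nat.Prime 5)).1 h4
  have h5 : IsPGroup 5 C := IsPGroup.of_card hk
  have h6 := le_of_cent D (orderOf_c hf) (card_P hf) P_comm h5 (fun u hu => hu 0 1)
  obtain ⟨_, ⟨a, b, c, rfl⟩, h7⟩ := h6 (show g ∈ C from hg)
  have h8 := hg 1 0
  rw [← h7, ← map_mul, ← map_mul, us_mul, us_mul] at h8
  obtain ⟨-, e2, -⟩ := us_inj (hf h8)
  have hc : c = 0 := by linear_combination -e2
  subst hc
  exact ⟨a, b, h7.symm⟩

end

end Cfsg.Agent.H513.L5.ThC
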