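import Cfsg.Agent.H513.L5.ThC

/-!
# S5923 (M7): the local argument, end (helper513)
-/

set_option autoImplicit false
set_option linter.unusedSectionVars false

namespace Cfsg.Agent.H513.L5.ThC

open Subgroup Cfsg.Agent.H49.ThFive Cfsg.Agent.H865.L5 Cfsg.Agent.H513.L5.ThA Cfsg.Agent.H513.L5.ThB

universe u

theorem usl_pow (a b : ZMod 5) (n : ℕ) : (us 0 a b) ^ n = us 0 (n * a) (n * b) := by
  induction n with
  | zero => simp [us_one]
  | succ n ih =>
    rw [pow_succ, ih, us_mul]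
    congr 1 <;> push_cast <;> ring

theorem usl_split (s t : ZMod 5) : us 0 s t = (us 0 1 0) ^ s.val * (us 0 0 1) ^ t.val := by
  rw [usl_pow, usl_pow, us_mul]
  simp

theorem conj_comm {G : Type*} [Group G] {g c : G} (h : g * c = c * g) : g * c * g⁻¹ = c := by
  rw [h, mul_inv_cancel_right]

section

variable {K : Type u} [Group K] [Finite K] {x y z a : K} (D : Dat x y z a) {f : SL35 →* K}
  (hf : Function.Injective f)
  (hS : ∀ g : K, (∀ a b c, g * f (us a b c) = f (us a b c) * g) → g ∈ USs.map f)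
  (hV : ∀ g h : K, (∀ s t, g * f (us s t 0) = f (us s t 0) * g) → (∀ s t, h * f (us s t 0) = f (us s t 0) * h) →
      g * h = h * g)

include D hf hS hV

theorem exists_g : ∃ g : K, g * f (us 0 1 0) = f (us 0 1 0) * g ∧ ∃ b, g * f (us 1 0 0) * g⁻¹ = f (us 0 b 1) := by
  classical
  by_contra hcon
  have hcon' : ∀ g : K, g * f (us 0 1 0) = f (us 0 1 0) * g → ∀ b, g * f (us 1 0 0) * g⁻¹ ≠ f (us 0 b 1) :=
    fun g hg b h => hcon ⟨g, hg, b, h⟩
  let C := ↥(centralizer ({f (us 0 1 0)} : Set K))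
  have : Fintype C := Fintype.ofFinite _
  have hC : ∀ g : C, (g : K) * f (us 0 1 0) = f (us 0 1 0) * g := fun g => mem_centralizer_singleton_iff.1 g.2
  have hN := fun g : C => norm_US D hf (hC g) 1 0 0
  choose A B E hE using hN
  have hmaps : ∀ g ∈ (Finset.univ : Finset C), (fun g => (A g, E g)) g ∈
      (Finset.univ.filter fun p : ZMod 5 × ZMod 5 => p ≠ (0, 0) ∧ p ≠ (0, 1)) := by
    intro g _
    rw [Finset.mem_filter]
    refine ⟨Finset.mem_univ _, ?_, ?_⟩
    · intro h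
      obtain ⟨h1, h2⟩ := Prod.mk.inj h
      have h3 := hE g
      rw [h1, h2] at h3
      have h4 : (g : K) * f (us 0 (B g) 0) * (g : K)⁻¹ = f (us 0 (B g) 0) := by
        rw [us_split 0 (B g), map_mul, map_pow, map_pow]
        simp only [ZMod.val_zero, pow_zero, one_mul]
        rw [← conj_pow, conj_comm (hC g)]
      rw [← h4] at h3
      have h5 := mul_left_cancel (mul_right_cancel h3)
      have h6 := (us_inj (hf h5)).1
      exact absurd h6 (by decide)
    · intro h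
      obtain ⟨h1, h2⟩ := Prod.mk.inj h
      have h3 := hE g
      rw [h1, h2] at h3
      exact hcon' g (hC g) _ h3
  have hcard : (Finset.univ.filter fun p : ZMod 5 × ZMod 5 => p ≠ (0, 0) ∧ p ≠ (0, 1)).card * 125 <
      (Finset.univ : Finset C).card := by
    have h1 : (Finset.univ.filter fun p : ZMod 5 × ZMod 5 => p ≠ (0, 0) ∧ p ≠ (0, 1)).card = 23 := by decide +kernel
    rw [h1, Finset.card_univ, ← Nat.card_eq_fintype_card, card_cent D (orderOf_c hf)]
    norm_num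
  obtain ⟨y, -, hy⟩ := Finset.exists_lt_card_fiber_of_mul_lt_card_of_maps_to hmaps hcard
  have hne : (Finset.univ.filter fun g : C => (A g, E g) = y).Nonempty := by
    rw [← Finset.card_pos]
    omega
  obtain ⟨g0, hg0⟩ := hne
  have key : ∀ g ∈ Finset.univ.filter fun g : C => (A g, E g) = y, (g0 : K)⁻¹ * (g : K) ∈ USs.map f := by
    intro g hg
    rw [Finset.mem_filter] at hg hg0
    have h1 : A g = A g0 ∧ E g = E g0 := Prod.mk.inj (hg.2.trans hg0.2.symm)
    have h2 := hE g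
    have h3 := hE g0
    rw [h1.1, h1.2] at h2
    have hm : ((g0 : K)⁻¹ * (g : K)) * f (us 0 1 0) = f (us 0 1 0) * ((g0 : K)⁻¹ * (g : K)) :=
      mem_centralizer_singleton_iff.1 ((g0⁻¹ * g : C).2)
    have hg0c : (g0 : K) * f (us 0 (B g - B g0) 0) * (g0 : K)⁻¹ = f (us 0 (B g - B g0) 0) := by
      rw [us_split 0 (B g - B g0), map_mul, map_pow, map_pow]
      simp only [ZMod.val_zero, pow_zero, one_mul]
      rw [← conj_pow, conj_comm (hC g0)]
    have h4 : ((g0 : K)⁻¹ * (g : K)) * f (us 1 0 0) * ((g0 : K)⁻¹ * (g : K))⁻¹ = f (us 1 (B g - B g0) 0) := by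
      have e1 : us (A g0) (B g) (E g0) = us (A g0) (B g0) (E g0) * us 0 (B g - B g0) 0 := by
        rw [us_mul]
        congr 1 <;> ring
      have e2 : us 1 (B g - B g0) 0 = us 1 0 0 * us 0 (B g - B g0) 0 := by
        rw [us_mul]
        congr 1 <;> ring
      calc ((g0 : K)⁻¹ * (g : K)) * f (us 1 0 0) * ((g0 : K)⁻¹ * (g : K))⁻¹ =
          (g0 : K)⁻¹ * ((g : K) * f (us 1 0 0) * (g : K)⁻¹) * g0 := by group
        _ = (g0 : K)⁻¹ * (f (us (A g0) (B g0) (E g0)) * f (us 0 (B g - B g0) 0)) * g0 := by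
          rw [h2, e1, map_mul]
        _ = (g0 : K)⁻¹ * (((g0 : K) * f (us 1 0 0) * (g0 : K)⁻¹) *
            ((g0 : K) * f (us 0 (B g - B g0) 0) * (g0 : K)⁻¹)) * g0 := by rw [h3, hg0c]
        _ = f (us 1 0 0) * f (us 0 (B g - B g0) 0) := by group
        _ = _ := by rw [e2, map_mul]
    have h5 : ∃ w, (g0 : K)⁻¹ * (g : K) = f w := by
      refine NP hf (fun u hu => ?_) (fun s t => ?_)
      · obtain ⟨s, t, h⟩ := cent_VP D hf hS hV hu
        exact ⟨_, h⟩
      · have e : ((g0 : K)⁻¹ * (g : K)) * f (us s t 0) * ((g0 : K)⁻¹ * (g : K))⁻¹ =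
            (((g0 : K)⁻¹ * (g : K)) * f (us 1 0 0) * ((g0 : K)⁻¹ * (g : K))⁻¹) ^ s.val *
            (((g0 : K)⁻¹ * (g : K)) * f (us 0 1 0) * ((g0 : K)⁻¹ * (g : K))⁻¹) ^ t.val := by
          rw [conj_pow, conj_pow, us_split s t, map_mul, map_pow, map_pow]
          group
        rw [e, h4, conj_comm hm, ← map_pow, ← map_pow, ← map_mul, us_pow, us_pow, us_mul]
        exact ⟨_, _, by congr 2⟩
    obtain ⟨w, hw⟩ := h5
    rw [hw] at hm h4 ⊢
    rw [← map_mul, ← map_mul] at hm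
    rw [mul_inv_eq_iff_eq_mul, ← map_mul, ← map_mul] at h4
    obtain ⟨p, q, r, h6⟩ := mem_US (hf hm) (hf h4)
    exact ⟨w, ⟨p, q, r, h6⟩, rfl⟩
  have hle : (Finset.univ.filter fun g : C => (A g, E g) = y).card ≤ 125 := by
    have : Fintype ↥(USs.map f) := Fintype.ofFinite _
    rw [← card_P hf, Nat.card_eq_fintype_card, ← Finset.card_univ (α := ↥(USs.map f))]
    refine Finset.card_le_card_of_injOn (fun g => if h : (g0 : K)⁻¹ * (g : K) ∈ USs.map f then ⟨_, h⟩ else 1)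
      (fun g _ => Finset.mem_coe.2 (Finset.mem_univ _)) ?_
    intro g hg g' hg' h
    have h1 := key g hg
    have h2 := key g' hg'
    simp only [dif_pos h1, dif_pos h2] at h
    have h3 := congrArg Subtype.val h
    exact Subtype.ext (mul_left_cancel h3)
  omega

/-- **the local argument** -/
theorem main (hN : ∀ g : K, (∀ x, ∃ y, g * f x * g⁻¹ = f y) → ∃ y, g = f y) : False := by
  obtain ⟨g, hg, b0, h1⟩ := exists_g D hf hS hV
  have hgc : g * f (us 0 1 0) * g⁻¹ = f (us 0 1 0) := conj_comm hg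
  have hCP : ∀ u : K, (∀ s t, u * f (us s t 0) = f (us s t 0) * u) → ∃ x, u = f x := fun u hu => by
    obtain ⟨s, t, h⟩ := cent_VP D hf hS hV hu
    exact ⟨_, h⟩
  have g1 : ∀ s t, ∃ s' t', g * f (us s t 0) * g⁻¹ = f (us 0 s' t') := by
    intro s t
    have e : g * f (us s t 0) * g⁻¹ = (g * f (us 1 0 0) * g⁻¹) ^ s.val * (g * f (us 0 1 0) * g⁻¹) ^ t.val := by
      rw [conj_pow, conj_pow, us_split s t, map_mul, map_pow, map_pow]
      group
    rw [e, h1, hgc, ← map_pow, ← map_pow, ← map_mul, usl_pow, usl_pow, us_mul, add_zero]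
    exact ⟨_, _, rfl⟩
  have g1' : ∀ s' t', ∃ s t, g * f (us s t 0) * g⁻¹ = f (us 0 s' t') := by
    intro s' t'
    obtain ⟨p, hp⟩ := onto (x := fun p : ZMod 5 × ZMod 5 => f (us p.1 p.2 0))
      (y := fun p : ZMod 5 × ZMod 5 => f (us 0 p.1 p.2)) (g := g) (by
        intro p p' h
        obtain ⟨k1, k2, -⟩ := us_inj (hf h)
        exact Prod.ext k1 k2) (fun p => by
        obtain ⟨s', t', h⟩ := g1 p.1 p.2
        exact ⟨(s', t'), h⟩) (s', t')
    exact ⟨_, _, hp⟩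
  -- the normalizer of `VL`
  have NL : ∀ n : K, (∀ s t, ∃ s' t', n * f (us 0 s t) * n⁻¹ = f (us 0 s' t')) → ∃ x, n = f x := by
    intro n hn
    have hf2 : Function.Injective (f.comp io'.toMonoidHom) := hf.comp io'.injective
    have e2 : ∀ s t, (f.comp io'.toMonoidHom) (us s t 0) = f (us 0 (-t) s) := by
      intro s t
      show f (io' (us s t 0)) = _
      rw [io'_us]
    obtain ⟨w, hw⟩ := NP (f := f.comp io'.toMonoidHom) hf2 (n := n) (fun u hu => by
      have h2 : ∀ s t, (g⁻¹ * u * g) * f (us s t 0) = f (us s t 0) * (g⁻¹ * u * g) := by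
        intro s t
        obtain ⟨s', t', h3⟩ := g1 s t
        have h4 := hu t' (-s')
        rw [e2, neg_neg, ← h3] at h4
        calc (g⁻¹ * u * g) * f (us s t 0) = g⁻¹ * (u * (g * f (us s t 0) * g⁻¹)) * g := by group
          _ = g⁻¹ * (g * f (us s t 0) * g⁻¹ * u) * g := by rw [h4]
          _ = _ := by group
      obtain ⟨s, t, h3⟩ := cent_VP D hf hS hV h2
      obtain ⟨s', t', h4⟩ := g1 s t
      refine ⟨us t' (-s') 0, ?_⟩
      rw [e2, neg_neg, ← h4, ← h3]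
      group) (fun s t => by
      obtain ⟨s', t', h3⟩ := hn (-t) s
      refine ⟨t', -s', ?_⟩
      rw [e2, e2, h3, neg_neg])
    exact ⟨_, hw⟩
  -- the conjugate of the torus element
  have hdm : ∀ s t r, f dm * f (us s t r) = f (us (3 * s) t (2 * r)) * f dm := by
    intro s t r
    rw [← map_mul, ← map_mul, dm_mul]
  obtain ⟨w, hw⟩ : ∃ w, g * f dm * g⁻¹ = f w := by
    apply NL
    intro s t
    obtain ⟨s', t', h2⟩ := g1' s t
    obtain ⟨s'', t'', h3⟩ := g1 (3 * s') t'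
    refine ⟨s'', t'', ?_⟩
    rw [← h2, ← h3]
    have h4 := hdm s' t' 0
    rw [mul_zero] at h4
    calc g * f dm * g⁻¹ * (g * f (us s' t' 0) * g⁻¹) * (g * f dm * g⁻¹)⁻¹ =
        g * (f dm * f (us s' t' 0)) * (f dm)⁻¹ * g⁻¹ := by group
      _ = g * (f (us (3 * s') t' 0) * f dm) * (f dm)⁻¹ * g⁻¹ := by rw [h4]
      _ = _ := by group
  have hwc : w * us 0 1 0 = us 0 1 0 * w := by
    apply hf
    rw [map_mul, map_mul, ← hw]
    have h4 := hdm 0 1 0
    simp only [mul_zero] at h4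
    calc g * f dm * g⁻¹ * f (us 0 1 0) = g * f dm * g⁻¹ * (g * f (us 0 1 0) * g⁻¹) := by rw [hgc]
      _ = g * (f dm * f (us 0 1 0)) * g⁻¹ := by group
      _ = g * (f (us 0 1 0) * f dm) * g⁻¹ := by rw [h4]
      _ = (g * f (us 0 1 0) * g⁻¹) * (g * f dm * g⁻¹) := by group
      _ = _ := by rw [hgc]
  have hw1 : w * us 0 b0 1 = us 0 (3 * b0) (3 * 1) * w := by
    apply hf
    rw [map_mul, map_mul, ← hw]
    have h4 := hdm 1 0 0
    simp only [mul_zero, mul_one] at h4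
    have h5 : us 3 0 0 = (us 1 0 0) ^ 3 := by
      rw [us_pow]
      simp
    have h6 : us 0 (3 * b0) (3 * 1) = (us 0 b0 1) ^ 3 := by
      rw [usl_pow]
      simp
    rw [h5] at h4
    calc g * f dm * g⁻¹ * f (us 0 b0 1) = g * f dm * g⁻¹ * (g * f (us 1 0 0) * g⁻¹) := by rw [h1]
      _ = g * (f dm * f (us 1 0 0)) * g⁻¹ := by group
      _ = g * (f ((us 1 0 0) ^ 3) * f dm) * g⁻¹ := by rw [h4]
      _ = (g * f (us 1 0 0) * g⁻¹) ^ 3 * (g * f dm * g⁻¹) := by rw [conj_pow, map_pow]; group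
      _ = _ := by rw [h1, h6, map_pow]
  obtain ⟨a1, b1, c1, h2⟩ := norm_US D hf hg 0 0 1
  have hw2 : w * us a1 b1 c1 = us (a1 + a1) (b1 + a1 * c1 + b1) (c1 + c1) * w := by
    apply hf
    rw [map_mul, map_mul, ← hw]
    have h4 := hdm 0 0 1
    simp only [mul_zero, mul_one] at h4
    have h5 : us 0 0 2 = us 0 0 1 * us 0 0 1 := by
      rw [us_mul]
      congr 1
    rw [h5] at h4
    calc g * f dm * g⁻¹ * f (us a1 b1 c1) = g * f dm * g⁻¹ * (g * f (us 0 0 1) * g⁻¹) := by rw [h2]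
      _ = g * (f dm * f (us 0 0 1)) * g⁻¹ := by group
      _ = g * (f (us 0 0 1 * us 0 0 1) * f dm) * g⁻¹ := by rw [h4]
      _ = (g * f (us 0 0 1) * g⁻¹) * (g * f (us 0 0 1) * g⁻¹) * (g * f dm * g⁻¹) := by rw [map_mul]; group
      _ = _ := by rw [h2, ← map_mul, us_mul]
  have hc1 : c1 = 0 := by
    obtain ⟨-, -, -, -, k5, -⟩ := cent_form hwc
    obtain ⟨-, e1⟩ := cent_us hwc hw1
    obtain ⟨-, e2⟩ := cent_us hwc hw2
    have h3 : w.1 0 0 * c1 = 0 := by linear_combination e2 - c1 * e1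
    exact (mul_eq_zero.1 h3).resolve_left k5
  subst hc1
  have g2 : ∀ s t, ∃ s' t', g * f (us 0 s t) * g⁻¹ = f (us s' t' 0) := by
    intro s t
    have e : g * f (us 0 s t) * g⁻¹ = (g * f (us 0 1 0) * g⁻¹) ^ s.val * (g * f (us 0 0 1) * g⁻¹) ^ t.val := by
      rw [conj_pow, conj_pow, usl_split s t, map_mul, map_pow, map_pow]
      group
    rw [e, h2, hgc, ← map_pow, ← map_pow, ← map_mul, us_pow, us_pow, us_mul, add_zero]
    exact ⟨_, _, rfl⟩
  have g2' : ∀ s' t', ∃ s t, g * f (us 0 s t) * g⁻¹ = f (us s' t' 0) := by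
    intro s' t'
    obtain ⟨p, hp⟩ := onto (x := fun p : ZMod 5 × ZMod 5 => f (us 0 p.1 p.2))
      (y := fun p : ZMod 5 × ZMod 5 => f (us p.1 p.2 0)) (g := g) (by
        intro p p' h
        obtain ⟨-, k1, k2⟩ := us_inj (hf h)
        exact Prod.ext k1 k2) (fun p => by
        obtain ⟨s', t', h⟩ := g2 p.1 p.2
        exact ⟨(s', t'), h⟩) (s', t')
    exact ⟨_, _, hp⟩
  let H : Subgroup SL35 :=
    { carrier := {x | ∃ y, g * f x * g⁻¹ = f y}
      one_mem' := ⟨1, by rw [map_one, mul_one, mul_inv_cancel]⟩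
      mul_mem' := by
        rintro u v ⟨y, hy⟩ ⟨y', hy'⟩
        refine ⟨y * y', ?_⟩
        rw [map_mul, map_mul, ← hy, ← hy']
        group
      inv_mem' := by
        rintro u ⟨y, hy⟩
        refine ⟨y⁻¹, ?_⟩
        rw [map_inv, map_inv, ← hy]
        group }
  have hH : ∀ x, x ∈ H := by
    refine gen (fun x hx => ?_) (fun x hx => ?_)
    · apply NL
      intro s t
      obtain ⟨s', t', h3⟩ := g1' s t
      obtain ⟨s'', t'', h4⟩ := hx s' t'
      obtain ⟨s3, t3, h5⟩ := g1 s'' t''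
      refine ⟨s3, t3, ?_⟩
      rw [← h3, ← h5]
      have h6 : f x * f (us s' t' 0) = f (us s'' t'' 0) * f x := by rw [← map_mul, ← map_mul, h4]
      calc g * f x * g⁻¹ * (g * f (us s' t' 0) * g⁻¹) * (g * f x * g⁻¹)⁻¹ =
          g * (f x * f (us s' t' 0)) * (f x)⁻¹ * g⁻¹ := by group
        _ = g * (f (us s'' t'' 0) * f x) * (f x)⁻¹ * g⁻¹ := by rw [h6]
        _ = _ := by group
    · refine NP hf hCP (fun s t => ?_)
      obtain ⟨s', t', h3⟩ := g2' s t
      obtain ⟨s'', t'', h4⟩ := hx s' t'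
      obtain ⟨s3, t3, h5⟩ := g2 s'' t''
      refine ⟨s3, t3, ?_⟩
      rw [← h3, ← h5]
      have h6 : f x * f (us 0 s' t') = f (us 0 s'' t'') * f x := by rw [← map_mul, ← map_mul, h4]
      calc g * f x * g⁻¹ * (g * f (us 0 s' t') * g⁻¹) * (g * f x * g⁻¹)⁻¹ =
          g * (f x * f (us 0 s' t')) * (f x)⁻¹ * g⁻¹ := by group
        _ = g * (f (us 0 s'' t'') * f x) * (f x)⁻¹ * g⁻¹ := by rw [h6]
        _ = _ := by group
  obtain ⟨y, hy⟩ := hN g hH
  rw [hy, ← map_mul, ← map_mul] at hg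
  rw [hy, mul_inv_eq_iff_eq_mul, ← map_mul, ← map_mul] at h1
  obtain ⟨e1, -⟩ := cent_us (hf hg) (hf h1)
  obtain ⟨-, -, -, -, k5, -⟩ := cent_form (hf hg)
  rw [mul_one, mul_zero] at e1
  exact k5 e1

end

end Cfsg.Agent.H513.L5.ThC
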