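import Cfsg.Agent.H49.ThFiveDat
import Cfsg.Agent.H513.L5.ThD

/-!
# S5923 (M7): `Th` (helper513)

`no_th_of` : `no_th` with the normalizer statement `norm_eq` as a hypothesis.
-/

set_option autoImplicit false
set_option linter.unusedSectionVars false

namespace Cfsg.Agent.H513.L5

open Subgroup Cfsg.Agent.H49.ThFive Cfsg.Agent.H865.L5 Cfsg.Agent.H513.L5.ThB Cfsg.Agent.H513.L5.ThC

theorem no_th_of {f : SL35 →* G3} (h : GoodIn ⊤ f) (hf : Function.Injective f)
    (hnorm : Subgroup.normalizer (f.range : Set G3) = f.range) {T : Subgroup G3}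
    (hT : Cfsg.Spor.IsoTh T) (hT2 : f.range ≤ T) : False := by
  obtain ⟨hfin, x, y, z, a, D⟩ := exists_dat
  obtain ⟨e⟩ := hT
  obtain ⟨F, hF⟩ : ∃ F : SL35 →* Spor.Th, ∀ s, ((e.symm (F s) : T) : G3) = f s :=
    ⟨e.toMonoidHom.comp (f.codRestrict T fun s => hT2 ⟨s, rfl⟩), fun s => by simp⟩
  have hFi : Function.Injective F := by
    intro s t hst
    apply hf
    rw [← hF s, ← hF t, hst]
  have hback : ∀ (g : Spor.Th) (s : SL35), ((e.symm g : T) : G3) = f s → g = F s := by
    intro g s hg
    rw [← hF s] at hg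
    exact e.symm.injective (Subtype.ext hg)
  have hcomm : ∀ (g : Spor.Th) (s : SL35), g * F s = F s * g → ((e.symm g : T) : G3) * f s = f s * ((e.symm g : T) : G3) := by
    intro g s hg
    have := congrArg (fun w : Spor.Th => ((e.symm w : T) : G3)) hg
    simpa only [map_mul, Subgroup.coe_mul, hF] using this
  refine main D (f := F) hFi ?_ ?_ ?_
  · intro g hg
    obtain ⟨s, ⟨p, q, r, hs⟩, hgs⟩ := h.centS ((e.symm g : T) : G3) trivial (by
      rintro s ⟨p, q, r, rfl⟩
      exact hcomm g _ (hg p q r))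
    exact ⟨s, ⟨p, q, r, hs⟩, (hback g s hgs).symm⟩
  · intro g g' hg hg'
    have h1 := h.centV ((e.symm g : T) : G3) trivial ((e.symm g' : T) : G3) trivial (by
      rintro s ⟨p, q, rfl⟩
      exact hcomm g _ (hg p q)) (by
      rintro s ⟨p, q, rfl⟩
      exact hcomm g' _ (hg' p q))
    have h2 : e.symm (g * g') = e.symm (g' * g) := by
      rw [map_mul, map_mul]
      exact Subtype.ext h1
    exact e.symm.injective h2
  · intro g hg
    have h1 : ∀ s, ∃ t, ((e.symm g : T) : G3) * f s * ((e.symm g : T) : G3)⁻¹ = f t := by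
      intro s
      obtain ⟨t, ht⟩ := hg s
      refine ⟨t, ?_⟩
      have := congrArg (fun w : Spor.Th => ((e.symm w : T) : G3)) ht
      simpa only [map_mul, map_inv, Subgroup.coe_mul, Subgroup.coe_inv, hF] using this
    have h2 := onto (x := f) (y := f) hf h1
    have h3 : ((e.symm g : T) : G3) ∈ Subgroup.normalizer (f.range : Set G3) := by
      rw [Subgroup.mem_normalizer_iff]
      intro w
      constructor
      · rintro ⟨s, rfl⟩
        obtain ⟨t, ht⟩ := h1 s
        exact ⟨t, ht.symm⟩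
      · rintro ⟨t, ht⟩
        obtain ⟨s, hs⟩ := h2 t
        refine ⟨s, ?_⟩
        rw [ht] at hs
        exact mul_left_cancel (mul_right_cancel hs)
    rw [hnorm] at h3
    obtain ⟨s, hs⟩ := h3
    exact ⟨s, hback g s hs.symm⟩

end Cfsg.Agent.H513.L5
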