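import Cfsg.Agent.H857.L5.StepThree
import Cfsg.Agent.H513.L5.ThB

/-!
# S5924, U-III: step 4 of the abstract uniqueness of `SL₃(5)` (helper513)

`unique_abs_of` : from the uniqueness of the restriction to `B` and `step3`.
-/

set_option autoImplicit false

namespace Cfsg.Agent.H513.L5.Uni

open Cfsg.Agent.H865.L5 Cfsg.Agent.H857.L5 Cfsg.Agent.H513.L5.ThB

/-- the stabiliser of the line -/
def PL : Set SL35 := {x | x.1 2 0 = 0 ∧ x.1 2 1 = 0}

theorem wm_wm : ThB.wm * ThB.wm = 1 := by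
  apply Subtype.ext
  show (!![0, 0, 1; 0, -1, 0; 1, 0, 0] * !![0, 0, 1; 0, -1, 0; 1, 0, 0] : Matrix (Fin 3) (Fin 3) (ZMod 5)) = 1
  decide

theorem wm_inv : (ThB.wm)⁻¹ = ThB.wm := inv_eq_of_mul_eq_one_left wm_wm

theorem io_wm : io ThB.wm = ThB.wm := by
  rw [io_apply, wm_inv]
  apply Subtype.ext
  show (!![0, 0, 1; 0, -1, 0; 1, 0, 0] : Matrix (Fin 3) (Fin 3) (ZMod 5)).transpose = !![0, 0, 1; 0, -1, 0; 1, 0, 0]
  decide

theorem io'_apply (x : SL35) : io' x = ThB.wm * io x * ThB.wm := by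
  show ThB.wm * io x * (ThB.wm)⁻¹ = _
  rw [wm_inv]

theorem io'_io' (x : SL35) : io' (io' x) = x := by
  rw [io'_apply, io'_apply, map_mul, map_mul, io_io, io_wm]
  calc ThB.wm * (ThB.wm * x * ThB.wm) * ThB.wm = (ThB.wm * ThB.wm) * x * (ThB.wm * ThB.wm) := by group
    _ = x := by rw [wm_wm, one_mul, mul_one]

theorem io'_val (x : SL35) (i j : Fin 3) :
    (io' x).1 i j = (!![0, 0, 1; 0, -1, 0; 1, 0, 0] * (x.1.adjugate).transpose * !![0, 0, 1; 0, -1, 0; 1, 0, 0] :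
      Matrix (Fin 3) (Fin 3) (ZMod 5)) i j := by
  rw [io'_apply]
  rfl

theorem J_10 (M : Matrix (Fin 3) (Fin 3) (ZMod 5)) : (!![0, 0, 1; 0, -1, 0; 1, 0, 0] * M * !![0, 0, 1; 0, -1, 0; 1, 0, 0] :
    Matrix (Fin 3) (Fin 3) (ZMod 5)) 1 0 = - M 1 2 := by
  rw [Matrix.mul_apply, Fin.sum_univ_three, Matrix.mul_apply, Matrix.mul_apply, Matrix.mul_apply, Fin.sum_univ_three,
    Fin.sum_univ_three, Fin.sum_univ_three]
  simp

theorem J_20 (M : Matrix (Fin 3) (Fin 3) (ZMod 5)) : (!![0, 0, 1; 0, -1, 0; 1, 0, 0] * M * !![0, 0, 1; 0, -1, 0; 1, 0, 0] :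
    Matrix (Fin 3) (Fin 3) (ZMod 5)) 2 0 = M 0 2 := by
  rw [Matrix.mul_apply, Fin.sum_univ_three, Matrix.mul_apply, Matrix.mul_apply, Matrix.mul_apply, Fin.sum_univ_three,
    Fin.sum_univ_three, Fin.sum_univ_three]
  simp

theorem J_21 (M : Matrix (Fin 3) (Fin 3) (ZMod 5)) : (!![0, 0, 1; 0, -1, 0; 1, 0, 0] * M * !![0, 0, 1; 0, -1, 0; 1, 0, 0] :
    Matrix (Fin 3) (Fin 3) (ZMod 5)) 2 1 = - M 0 1 := by
  rw [Matrix.mul_apply, Fin.sum_univ_three, Matrix.mul_apply, Matrix.mul_apply, Matrix.mul_apply, Fin.sum_univ_three,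
    Fin.sum_univ_three, Fin.sum_univ_three]
  simp

theorem io'_10 (x : SL35) : (io' x).1 1 0 = x.1 0 0 * x.1 2 1 - x.1 0 1 * x.1 2 0 := by
  rw [io'_val, J_10, Matrix.transpose_apply, Matrix.adjugate_fin_three]
  show -(-(x.1 0 0 * x.1 2 1) + x.1 0 1 * x.1 2 0) = _
  ring

theorem io'_20 (x : SL35) : (io' x).1 2 0 = x.1 1 0 * x.1 2 1 - x.1 1 1 * x.1 2 0 := by
  rw [io'_val, J_20, Matrix.transpose_apply, Matrix.adjugate_fin_three]
  show x.1 1 0 * x.1 2 1 - x.1 1 1 * x.1 2 0 = _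
  ring

theorem io'_21 (x : SL35) : (io' x).1 2 1 = x.1 1 0 * x.1 2 2 - x.1 1 2 * x.1 2 0 := by
  rw [io'_val, J_21, Matrix.transpose_apply, Matrix.adjugate_fin_three]
  show -(-(x.1 1 0 * x.1 2 2) + x.1 1 2 * x.1 2 0) = _
  ring

theorem io'_BB {x : SL35} (h : x ∈ BB) : io' x ∈ BB := by
  obtain ⟨h1, h2, h3⟩ := h
  refine ⟨?_, ?_, ?_⟩
  · rw [io'_10, h2, h3]; ring
  · rw [io'_20, h2, h3]; ring
  · rw [io'_21, h1, h2]; ring

theorem io'_PB {x : SL35} (h : x ∈ PB) : io' x ∈ PL := by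
  obtain ⟨h1, h2⟩ := h
  refine ⟨?_, ?_⟩
  · rw [io'_20, h1, h2]; ring
  · rw [io'_21, h1, h2]; ring

theorem io'_PL {x : SL35} (h : x ∈ PL) : io' x ∈ PB := by
  obtain ⟨h1, h2⟩ := h
  refine ⟨?_, ?_⟩
  · rw [io'_10, h1, h2]; ring
  · rw [io'_20, h1, h2]; ring

/-- `PB` and `PL` generate -/
theorem mem_of_PB_PL {H : Subgroup SL35} (h1 : ∀ x ∈ PB, x ∈ H) (h2 : ∀ x ∈ PL, x ∈ H) (x : SL35) : x ∈ H := by
  refine ThB.gen (fun x h => h1 x ?_) (fun x h => h2 x ?_) x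
  · obtain ⟨s', t', h⟩ := h 1 0
    have h0 : ∀ i j, (x.1 * !![1, 1, 0; 0, 1, 0; 0, 0, 1] : Matrix (Fin 3) (Fin 3) (ZMod 5)) i j =
        (!![1, s', t'; 0, 1, 0; 0, 0, 1] * x.1 : Matrix (Fin 3) (Fin 3) (ZMod 5)) i j :=
      fun i j => congrArg (fun g : SL35 => g.1 i j) h
    have e1 := h0 1 1
    have e2 := h0 2 1
    simp [Matrix.mul_apply, Fin.sum_univ_three] at e1 e2
    exact ⟨e1, e2⟩
  · obtain ⟨s', t', h3⟩ := h 0 1
    obtain ⟨s'', t'', h4⟩ := h 1 0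
    have h0 : ∀ i j, (x.1 * !![1, 0, 0; 0, 1, 1; 0, 0, 1] : Matrix (Fin 3) (Fin 3) (ZMod 5)) i j =
        (!![1, 0, s'; 0, 1, t'; 0, 0, 1] * x.1 : Matrix (Fin 3) (Fin 3) (ZMod 5)) i j :=
      fun i j => congrArg (fun g : SL35 => g.1 i j) h3
    have h0' : ∀ i j, (x.1 * !![1, 0, 1; 0, 1, 0; 0, 0, 1] : Matrix (Fin 3) (Fin 3) (ZMod 5)) i j =
        (!![1, 0, s''; 0, 1, t''; 0, 0, 1] * x.1 : Matrix (Fin 3) (Fin 3) (ZMod 5)) i j :=
      fun i j => congrArg (fun g : SL35 => g.1 i j) h4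
    have e1 := h0 2 2
    have e2 := h0' 2 2
    simp [Matrix.mul_apply, Fin.sum_univ_three] at e1 e2
    exact ⟨e2, e1⟩

theorem eq_of_PB_PL {Γ : Type*} [Group Γ] {f f' : SL35 →* Γ} (h1 : ∀ x ∈ PB, f x = f' x) (h2 : ∀ x ∈ PL, f x = f' x)
    (x : SL35) : f x = f' x :=
  mem_of_PB_PL (H := f.eqLocus f') h1 h2 x

/-- an element of `US` which commutes with `BB` is trivial -/
theorem eq_one_of_BB {s : SL35} (hs : s ∈ US) (h : ∀ x ∈ BB, s * x = x * s) : s = 1 := by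
  obtain ⟨a, b, c, rfl⟩ := hs
  have h1 := h (us 1 0 0) ⟨rfl, rfl, rfl⟩
  have h2 := h (us 0 0 1) ⟨rfl, rfl, rfl⟩
  rw [us_mul, us_mul] at h1 h2
  obtain ⟨-, h1, -⟩ := us_inj h1
  obtain ⟨-, h2, -⟩ := us_inj h2
  have hc : c = 0 := by linear_combination -h1
  have ha : a = 0 := by linear_combination h2
  have h3 := h z0 ⟨rfl, rfl, rfl⟩
  have h4 := congrArg (fun g : SL35 => g.1 0 2) h3
  have h5 : (!![1, a, b; 0, 1, c; 0, 0, 1] * !![4, 0, 0; 0, 2, 0; 0, 0, 2] : Matrix (Fin 3) (Fin 3) (ZMod 5)) 0 2 =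
    (!![4, 0, 0; 0, 2, 0; 0, 0, 2] * !![1, a, b; 0, 1, c; 0, 0, 1] : Matrix (Fin 3) (Fin 3) (ZMod 5)) 0 2 := h4
  simp [Matrix.mul_apply, Fin.sum_univ_three] at h5
  have hb' : ∀ b : ZMod 5, b * 2 = 4 * b → b = 0 := by decide
  have hb : b = 0 := hb' b h5
  rw [ha, hb, hc, us_one]

section

variable {Γ : Type*} [Group Γ]

/-- the conjugate of `f ∘ io'` -/
def F1 (g : Γ) (f : SL35 →* Γ) : SL35 →* Γ := (MulAut.conj g).toMonoidHom.comp (f.comp io'.toMonoidHom)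

theorem F1_apply (g : Γ) (f : SL35 →* Γ) (x : SL35) : F1 g f x = g * f (io' x) * g⁻¹ := rfl

/-- `F1 g f = f` contradicts `hE` -/
theorem no_F1 {f : SL35 →* Γ} (hE : ¬ ∃ τ, ∀ x, τ * f x * τ⁻¹ = f (io x)) {g : Γ} (h : ∀ x, F1 g f x = f x) :
    False := by
  apply hE
  refine ⟨g * f ThB.wm, fun x => ?_⟩
  have h1 := h (io x)
  rw [F1_apply, io'_apply, io_io, map_mul, map_mul] at h1
  rw [← h1, mul_inv_rev, ← map_inv, wm_inv]
  group

theorem unique_abs_of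
    (h2 : ∀ f f' : SL35 →* Γ, Function.Injective f → Function.Injective f' → ∃ g, ∀ x ∈ BB, f' x = g * f x * g⁻¹)
    (h3 : ∀ f f' f'' : SL35 →* Γ, Function.Injective f → Function.Injective f' → Function.Injective f'' →
      (∀ x ∈ BB, f' x = f x) → (∀ x ∈ BB, f'' x = f x) →
      (∀ x ∈ PB, f' x = f x) ∨ (∀ x ∈ PB, f'' x = f x) ∨ (∀ x ∈ PB, f' x = f'' x))
    (hS : ∀ f : SL35 →* Γ, Function.Injective f → ∀ a, (∀ s ∈ US, a * f s = f s * a) → ∃ s ∈ US, a = f s)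
    (hE : ∀ f : SL35 →* Γ, Function.Injective f → ¬ ∃ τ, ∀ x, τ * f x * τ⁻¹ = f (io x))
    (f f' : SL35 →* Γ) (hf : Function.Injective f) (hf' : Function.Injective f') :
    ∃ g, f'.range = f.range.map (MulAut.conj g).toMonoidHom := by
  have hιi : Function.Injective (f.comp io'.toMonoidHom) := hf.comp io'.injective
  obtain ⟨g, hg⟩ := h2 (f.comp io'.toMonoidHom) f hιi hf
  have hg' : ∀ x ∈ BB, f x = g * f (io' x) * g⁻¹ := hg
  -- `g ^ 2 = 1`
  have hgg : ∀ x ∈ BB, g * g * f x = f x * (g * g) := by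
    intro x hx
    have e1 := hg' x hx
    have e2 := hg' (io' x) (io'_BB hx)
    rw [io'_io'] at e2
    rw [e2] at e1
    have e3 : f x * (g * g) = (g * (g * f x * g⁻¹) * g⁻¹) * (g * g) := by rw [← e1]
    rw [e3]
    group
  have hUB : US ⊆ BB := by
    rintro _ ⟨a, b, c, rfl⟩
    exact ⟨rfl, rfl, rfl⟩
  obtain ⟨s, hs, hgs⟩ := hS f hf (g * g) fun s hs => hgg s (hUB hs)
  have hs1 : s = 1 := by
    refine eq_one_of_BB hs fun x hx => hf ?_
    rw [map_mul, map_mul, ← hgs]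
    exact hgg x hx
  have hg2 : g * g = 1 := by rw [hgs, hs1, map_one]
  have hginv : g⁻¹ = g := inv_eq_of_mul_eq_one_left hg2
  have hconj : ∀ y : Γ, g * (g * y * g⁻¹) * g⁻¹ = y := by
    intro y
    rw [hginv]
    calc g * (g * y * g) * g = (g * g) * y * (g * g) := by group
      _ = y := by rw [hg2, one_mul, mul_one]
  have hFinj : ∀ k : SL35 →* Γ, Function.Injective k → Function.Injective (F1 g k) := fun k hk =>
    (MulAut.conj g).injective.comp (hk.comp io'.injective)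
  have hpre : ∀ k : SL35 →* Γ, Function.Injective k → Function.Injective (k.comp io'.toMonoidHom) := fun k hk =>
    hk.comp io'.injective
  have hFB : ∀ x ∈ BB, F1 g f x = f x := fun x hx => (hg' x hx).symm
  -- `F1` is different from `f` on both parabolics
  have hn : ¬ ((∀ x ∈ PB, F1 g f x = f x) ∧ ∀ x ∈ PL, F1 g f x = f x) := fun h =>
    no_F1 (hE f hf) (eq_of_PB_PL h.1 h.2)
  have hnB : ¬ ∀ x ∈ PB, F1 g f x = f x := by
    intro h
    refine hn ⟨h, fun y hy => ?_⟩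
    have e1 := h (io' y) (io'_PL hy)
    rw [F1_apply, io'_io'] at e1
    rw [F1_apply, ← e1, hconj]
  have hnL : ¬ ∀ x ∈ PL, F1 g f x = f x := by
    intro h
    refine hn ⟨fun y hy => ?_, h⟩
    have e1 := h (io' y) (io'_PB hy)
    rw [F1_apply, io'_io'] at e1
    rw [F1_apply, ← e1, hconj]
  -- the conjugate of `f'`
  obtain ⟨k, hk⟩ := h2 f f' hf hf'
  obtain ⟨p, hp⟩ : ∃ p : SL35 →* Γ, ∀ x, p x = k⁻¹ * f' x * k :=
    ⟨(MulAut.conj k⁻¹).toMonoidHom.comp f', fun x => by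
      show k⁻¹ * f' x * (k⁻¹)⁻¹ = _
      rw [inv_inv]⟩
  have hpi : Function.Injective p := by
    intro x y hxy
    rw [hp, hp] at hxy
    exact hf' (mul_left_cancel (mul_right_cancel hxy))
  have hpB : ∀ x ∈ BB, p x = f x := by
    intro x hx
    rw [hp, hk x hx]
    group
  have key : ∃ g', p.range = f.range.map (MulAut.conj g').toMonoidHom := by
    have hPB : (∀ x ∈ PB, p x = f x) ∨ ∀ x ∈ PB, p x = F1 g f x := by
      rcases h3 f p (F1 g f) hf hpi (hFinj f hf) hpB hFB with h | h | h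
      · exact Or.inl h
      · exact absurd h hnB
      · exact Or.inr h
    have hPL : (∀ x ∈ PL, p x = f x) ∨ ∀ x ∈ PL, p x = F1 g f x := by
      have tr : ∀ q r : SL35 →* Γ, (∀ x ∈ PB, q.comp io'.toMonoidHom x = r.comp io'.toMonoidHom x) →
          ∀ x ∈ PL, q x = r x := by
        intro q r h x hx
        have e := h (io' x) (io'_PL hx)
        have e' : q (io' (io' x)) = r (io' (io' x)) := e
        rwa [io'_io'] at e'
      have hpB' : ∀ x ∈ BB, p.comp io'.toMonoidHom x = f.comp io'.toMonoidHom x := by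
        intro x hx
        have e := hpB (io' x) (io'_BB hx)
        exact e
      have hFB' : ∀ x ∈ BB, (F1 g f).comp io'.toMonoidHom x = f.comp io'.toMonoidHom x := by
        intro x hx
        have e := hFB (io' x) (io'_BB hx)
        exact e
      rcases h3 (f.comp io'.toMonoidHom) (p.comp io'.toMonoidHom) ((F1 g f).comp io'.toMonoidHom)
        hιi (hpre _ hpi) (hpre _ (hFinj f hf))
        hpB' hFB' with h | h | h
      · exact Or.inl (tr _ _ h)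
      · exact absurd (tr _ _ h) hnL
      · exact Or.inr (tr _ _ h)
    rcases hPB with hPB | hPB <;> rcases hPL with hPL | hPL
    · refine ⟨1, ?_⟩
      have h : p = f := MonoidHom.ext (eq_of_PB_PL hPB hPL)
      rw [h, map_one]
      exact (Subgroup.map_id _).symm
    · exfalso
      refine no_F1 (hE p hpi) (g := g) (eq_of_PB_PL (fun y hy => ?_) fun y hy => ?_)
      · rw [F1_apply, hPL _ (io'_PB hy), F1_apply, io'_io', hconj, hPB y hy]
      · rw [F1_apply, hPB _ (io'_PL hy), hPL y hy, F1_apply]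
    · exfalso
      refine no_F1 (hE p hpi) (g := g) (eq_of_PB_PL (fun y hy => ?_) fun y hy => ?_)
      · rw [F1_apply, hPL _ (io'_PB hy), hPB y hy, F1_apply]
      · rw [F1_apply, hPB _ (io'_PL hy), F1_apply, io'_io', hconj, hPL y hy]
    · refine ⟨g, ?_⟩
      have h : p = F1 g f := MonoidHom.ext (eq_of_PB_PL hPB hPL)
      rw [h, F1, MonoidHom.range_comp, MonoidHom.range_comp, MonoidHom.range_eq_top.2 io'.surjective,
        ← MonoidHom.range_eq_map]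
  obtain ⟨g', hg'⟩ := key
  refine ⟨k * g', ?_⟩
  have h1 : f' = (MulAut.conj k).toMonoidHom.comp p := by
    ext x
    show f' x = k * p x * k⁻¹
    rw [hp]
    group
  rw [h1, MonoidHom.range_comp, hg', Subgroup.map_map, map_mul]
  rfl

/-- `unique_abs` from step 2 (`h2`) -/
theorem unique_abs_of_step2
    (hc : ∀ f : SL35 →* Γ, Function.Injective f → ∀ a, (∀ s ∈ VP, a * f s = f s * a) →
      a ^ 10 = 1 ∧ f z0 * a * (f z0)⁻¹ = a ^ 7)
    (hab : ∀ f : SL35 →* Γ, Function.Injective f → ∀ a b, (∀ s ∈ VP, a * f s = f s * a) →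
      (∀ s ∈ VP, b * f s = f s * b) → a * b = b * a)
    (h16 : ∀ f : SL35 →* Γ, Function.Injective f →
      Nat.card {a : Γ // (∀ s ∈ VP, a * f s = f s * a) ∧ a ^ 2 = 1} = 16)
    (hu : ∀ f : SL35 →* Γ, Function.Injective f → ∀ a, (∀ s ∈ VP, a * f s = f s * a) →
      a * f (us 0 0 1) = f (us 0 0 1) * a → a ^ 2 = 1 → a = 1)
    (hS : ∀ f : SL35 →* Γ, Function.Injective f → ∀ a, (∀ s ∈ US, a * f s = f s * a) → ∃ s ∈ US, a = f s)
    (hE : ∀ f : SL35 →* Γ, Function.Injective f → ¬ ∃ τ, ∀ x, τ * f x * τ⁻¹ = f (io x))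
    (h2 : ∀ f f' : SL35 →* Γ, Function.Injective f → Function.Injective f' → ∃ g, ∀ x ∈ BB, f' x = g * f x * g⁻¹)
    (f f' : SL35 →* Γ) (hf : Function.Injective f) (hf' : Function.Injective f') :
    ∃ g, f'.range = f.range.map (MulAut.conj g).toMonoidHom :=
  unique_abs_of h2 (fun f f' f'' hf hf' hf'' h h' => step3 hc hab h16 hu f f' f'' hf hf' hf'' h h') hS hE f f' hf hf'

end

end Cfsg.Agent.H513.L5.Uni
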