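import Cfsg.Agent.H947.L5.StepTwo
import Cfsg.Agent.H513.L5.Uni

/-!
# S5924, U: the abstract uniqueness of `SL₃(5)` (helper513)
-/

set_option autoImplicit false

namespace Cfsg.Agent.H513.L5

open Cfsg.Agent.H865.L5

/-- **U**: `SL₃(5)` is unique up to conjugation -/
theorem unique_abs {Γ : Type*} [Group Γ]
    (hc : ∀ f : SL35 →* Γ, Function.Injective f → ∀ a, (∀ s ∈ VP, a * f s = f s * a) →
      a ^ 10 = 1 ∧ f z0 * a * (f z0)⁻¹ = a ^ 7)
    (hab : ∀ f : SL35 →* Γ, Function.Injective f → ∀ a b, (∀ s ∈ VP, a * f s = f s * a) →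
      (∀ s ∈ VP, b * f s = f s * b) → a * b = b * a)
    (h16 : ∀ f : SL35 →* Γ, Function.Injective f →
      Nat.card {a : Γ // (∀ s ∈ VP, a * f s = f s * a) ∧ a ^ 2 = 1} = 16)
    (hu : ∀ f : SL35 →* Γ, Function.Injective f → ∀ a, (∀ s ∈ VP, a * f s = f s * a) →
      a * f (us 0 0 1) = f (us 0 0 1) * a → a ^ 2 = 1 → a = 1)
    (hS : ∀ f : SL35 →* Γ, Function.Injective f → ∀ a, (∀ s ∈ US, a * f s = f s * a) → ∃ s ∈ US, a = f s)
    (hV : ∀ f f' : SL35 →* Γ, Function.Injective f → Function.Injective f' →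
      ∃ g, ∀ s ∈ VP, ∃ s' ∈ VP, f' s = g * f s' * g⁻¹)
    (hE : ∀ f : SL35 →* Γ, Function.Injective f → ¬ ∃ τ, ∀ x, τ * f x * τ⁻¹ = f (io x))
    (f f' : SL35 →* Γ) (hf : Function.Injective f) (hf' : Function.Injective f') :
    ∃ g, f'.range = f.range.map (MulAut.conj g).toMonoidHom :=
  Uni.unique_abs_of_step2 hc hab h16 hu hS hE (fun f f' hf hf' => H947.L5.step2 hc hab h16 hu hV f f' hf hf')
    f f' hf hf'

end Cfsg.Agent.H513.L5
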